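import Mathlib
import Cfsg.Agent.Lib.LS.QForm

/-!
# Products of two by two matrices with prescribed traces and determinants
-/

set_option autoImplicit false

namespace CfsgLib.SpTh

open Matrix

variable {F : Type*} [Field F]

/-- the companion matrix -/
def cmp (t δ : F) : Matrix (Fin 2) (Fin 2) F := !![0, -δ; 1, t]

theorem exists_cmp {l : Matrix (Fin 2) (Fin 2) F} (h : ∀ μ : F, l ≠ μ • 1) :
    ∃ k : (Matrix (Fin 2) (Fin 2) F)ˣ, l = k.1 * cmp l.trace l.det * k⁻¹.1 := by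
  obtain ⟨x, y, hk⟩ : ∃ x y : F, (!![x, l 0 0 * x + l 0 1 * y; y, l 1 0 * x + l 1 1 * y] : Matrix _ _ F).det ≠ 0 := by
    by_contra h'
    push Not at h'
    have h1 := h' 1 0
    have h2 := h' 0 1
    have h3 := h' 1 1
    simp only [det_fin_two_of] at h1 h2 h3
    refine h (l 0 0) ?_
    ext i j
    fin_cases i <;> fin_cases j <;> simp
    · linear_combination -h2
    · linear_combination h1
    · linear_combination h3 - h1 - h2
  refine ⟨((isUnit_iff_isUnit_det _).2 hk.isUnit).unit, (Units.eq_mul_inv_iff_mul_eq _).2 ?_⟩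
  ext i j
  fin_cases i <;> fin_cases j <;> simp [cmp, mul_apply, Fin.sum_univ_two, trace_fin_two, det_fin_two] <;> ring

theorem ne_smul_of_disc {l : Matrix (Fin 2) (Fin 2) F} (h : l.trace ^ 2 - 4 * l.det ≠ 0) (μ : F) : l ≠ μ • 1 := by
  rintro rfl
  exact h (by simp; ring)

theorem exists_mul_of_sol {l : Matrix (Fin 2) (Fin 2) F} (h : ∀ μ : F, l ≠ μ • 1) {τ d τ' a c : F}
    (e : -a ^ 2 - l.trace * a * c - l.det * c ^ 2 + τ * a - (τ' - l.trace * τ) * c = d) :
    ∃ m : Matrix (Fin 2) (Fin 2) F, m.trace = τ ∧ m.det = d ∧ (l * m).trace = τ' := by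
  obtain ⟨k, hk⟩ := exists_cmp h
  refine ⟨k.1 * !![a, τ' + l.det * c - l.trace * (τ - a); c, τ - a] * k⁻¹.1, ?_, ?_, ?_⟩
  · rw [trace_units_conj]; simp
  · rw [det_units_conj, det_fin_two_of]; linear_combination e
  · generalize l.trace = t at *
    generalize l.det = δ at *
    rw [hk, Matrix.mul_assoc, Matrix.mul_assoc, ← Matrix.mul_assoc k⁻¹.1, ← Matrix.mul_assoc k⁻¹.1, Units.inv_mul,
      Matrix.one_mul, ← Matrix.mul_assoc, ← Matrix.mul_assoc, Matrix.mul_assoc k.1, trace_units_conj]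
    simp [cmp, trace_fin_two]

theorem exists_mul_of_disc [Fintype F] {l : Matrix (Fin 2) (Fin 2) F} (h : l.trace ^ 2 - 4 * l.det ≠ 0) (τ d τ' : F) :
    ∃ m : Matrix (Fin 2) (Fin 2) F, m.trace = τ ∧ m.det = d ∧ (l * m).trace = τ' := by
  generalize ht : l.trace = t at h
  generalize hδ : l.det = δ at h
  obtain ⟨a, c, h1, h2⟩ : ∃ a c, 2 * a + t * c = τ ∧ t * a + 2 * δ * c = t * τ - τ' :=
    ⟨(t * (t * τ - τ') - 2 * δ * τ) / (t ^ 2 - 4 * δ), (t * τ - 2 * (t * τ - τ')) / (t ^ 2 - 4 * δ),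
      by linear_combination τ * mul_inv_cancel₀ h, by linear_combination (t * τ - τ') * mul_inv_cancel₀ h⟩
  obtain ⟨s, r, e⟩ := LS.binary_universal (a := 1) (b := t) (c := δ) (by simpa using h)
    (a ^ 2 + t * a * c + δ * c ^ 2 - d)
  exact exists_mul_of_sol (ne_smul_of_disc (by rwa [ht, hδ])) (a := a + s) (c := c + r) (by
    rw [ht, hδ]; linear_combination -e - (a + s) * h1 - (c + r) * h2)

theorem not_dvd_orderOf (p : ℕ) [Fact p.Prime] [CharP F p] {A : (Matrix (Fin 2) (Fin 2) F)ˣ} {τ d : F}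
    (hA : A.1 = cmp τ d) (h : τ ^ 2 - 4 * d ≠ 0) (h0 : 0 < orderOf A) : ¬ p ∣ orderOf A := by
  rintro ⟨k, hk⟩
  have h1 : ∀ n : ℕ, ∃ u v : F, A.1 ^ n = !![u, -(v * d); v, u + v * τ] := fun n => by
    induction n with
    | zero => exact ⟨1, 0, by simp [one_fin_two]⟩
    | succ n ih =>
      obtain ⟨u, v, e⟩ := ih
      refine ⟨-(v * d), u + v * τ, ?_⟩
      rw [pow_succ, e, hA]
      ext i j
      fin_cases i <;> fin_cases j <;> simp [cmp]
      ring
  obtain ⟨u, v, e⟩ := h1 k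
  have h2 : IsNilpotent (A.1 ^ k - 1) := ⟨p, by
    rw [sub_pow_char_of_commute _ (Commute.one_right _), ← pow_mul, mul_comm, ← hk, ← Units.val_pow_eq_pow_val,
      pow_orderOf_eq_one]
    simp⟩
  have h3 := (isNilpotent_trace_of_isNilpotent h2).eq_zero
  have h4 : (A.1 ^ k - 1).det = 0 := by
    obtain ⟨n, hn⟩ := h2
    exact eq_zero_of_pow_eq_zero (n := n) (by rw [← det_pow, hn, det_zero])
  rw [e] at h3 h4
  simp [trace_fin_two, det_fin_two] at h3 h4
  have h5 : v = 0 := pow_eq_zero_iff two_ne_zero |>.1 (mul_left_cancel₀ h (by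
    linear_combination (2 * (u - 1) + v * τ) * h3 - 4 * h4))
  have h6 : u = 1 := sub_eq_zero.1 (pow_eq_zero_iff two_ne_zero |>.1 (by linear_combination h4 - (τ * (u - 1) + v * d) * h5))
  have h7 := orderOf_dvd_of_pow_eq_one (x := A) (n := k) (Units.ext (by simp [e, h5, h6, one_fin_two]))
  have := (Fact.out : p.Prime).one_lt
  have := Nat.le_of_dvd (Nat.pos_of_ne_zero (by rintro rfl; omega)) h7
  nlinarith

end CfsgLib.SpTh
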