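import Mathlib
import Cfsg.Agent.Lib.SpTh.GL2

/-!
# Products of two conjugates of a semisimple element of the Siegel Levi subgroup of `Sp₄`
-/

set_option autoImplicit false

namespace CfsgLib.SpTh

open Matrix CfsgLib.LS CfsgLib.Symp SymplecticGroup

variable {F : Type*} [Field F]

section General

variable {l : Type*} [Fintype l] [DecidableEq l]

/-- the Levi complement of the Siegel parabolic -/
def levi : (Matrix l l F)ˣ →* symplecticGroup l F where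
  toFun k := ⟨fromBlocks k.1 0 0 k⁻¹.1ᵀ, fromBlocks_mem_iff.2 ⟨by simp, by simp, by simp [← transpose_mul]⟩⟩
  map_one' := Subtype.ext (by simp)
  map_mul' a b := Subtype.ext (by simp [fromBlocks_multiply])

theorem coe_levi (k : (Matrix l l F)ˣ) : (levi k).1 = fromBlocks k.1 0 0 k⁻¹.1ᵀ := rfl

theorem levi_mul_spS (k : (Matrix l l F)ˣ) (S : symS l F) : levi k * spS S = spS (symAct k.1 S) * levi k :=
  Subtype.ext (by simp [coe_levi, spS, symAct, fromBlocks_multiply, Matrix.mul_assoc, ← transpose_mul])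

theorem spS_inv (S : symS l F) : (spS S)⁻¹ = spS (-S) :=
  inv_eq_of_mul_eq_one_right (by rw [← spS_add, add_neg_cancel, eq_one_of_add (V := symS l F) spS_add])

variable {g : symplecticGroup l F} {a b c e : Matrix l l F}

theorem eq_spS_mul (k : (Matrix l l F)ˣ) (hg : g.1 = fromBlocks k.1 b 0 e) : ∃ S, g = spS S * levi k := by
  obtain ⟨-, h1, h2⟩ := fromBlocks_mem_iff.1 (hg ▸ g.2)
  obtain rfl : e = k⁻¹.1ᵀ := by
    rw [← Matrix.one_mul e, ← transpose_one, ← k.mul_inv, transpose_mul, Matrix.mul_assoc]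
    simp_all
  refine ⟨⟨b * k.1ᵀ, ?_⟩, Subtype.ext ?_⟩
  · have := congrArg (fun M => k.1 * M * k.1ᵀ) h1
    show (b * k.1ᵀ)ᵀ = b * k.1ᵀ
    rw [transpose_mul, transpose_transpose]
    simpa [Matrix.mul_assoc, ← transpose_mul] using this
  · simp [hg, coe_levi, spS, fromBlocks_multiply, Matrix.mul_assoc, ← transpose_mul]

theorem coe_J_conj (hg : g.1 = fromBlocks a b c e) : (symJ l F * g * (symJ l F)⁻¹).1 = fromBlocks e (-c) (-b) a := by
  simp [hg, coe_inv, J, fromBlocks_multiply, fromBlocks_transpose, fromBlocks_neg]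

theorem coe_spS_conj (hg : g.1 = fromBlocks a b c e) (S : symS l F) :
    ∃ b' e', (spS S * g * (spS S)⁻¹).1 = fromBlocks (a + S.1 * c) b' c e' := by
  rw [spS_inv]
  exact ⟨_, _, by simp [hg, spS, fromBlocks_multiply]; exact ⟨rfl, rfl⟩⟩

end General

theorem exists_conj_low {m : ℕ} (hp : commutator (symplecticGroup (Fin m) F) = ⊤) (hm : 1 ≤ m)
    {g : symplecticGroup (Fin m) F} (hg : g ∉ Subgroup.center _) :
    ∃ h a b c e, c ≠ 0 ∧ (h * g * h⁻¹).1 = fromBlocks a b c e := by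
  let P : Subgroup (symplecticGroup (Fin m) F) :=
    { carrier := {g | ∃ a b e, g.1 = fromBlocks a b 0 e}
      mul_mem' := fun ⟨a, b, e, h⟩ ⟨a', b', e', h'⟩ => ⟨_, _, _, by simp [h, h', fromBlocks_multiply]; exact ⟨rfl, rfl, rfl⟩⟩
      one_mem' := ⟨1, 0, 1, by simp⟩
      inv_mem' := fun ⟨a, b, e, h⟩ => ⟨_, _, _, by
        simp [h, coe_inv, J, fromBlocks_multiply, fromBlocks_transpose, fromBlocks_neg]; exact ⟨rfl, rfl, rfl⟩⟩ }
  by_contra h
  push Not at h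
  rcases le_center_or_eq_top hp P.normalCore with h1 | h1
  · refine hg (h1 fun k => ⟨(k * g * k⁻¹).1.toBlocks₁₁, (k * g * k⁻¹).1.toBlocks₁₂, (k * g * k⁻¹).1.toBlocks₂₂, ?_⟩)
    rw [← show (k * g * k⁻¹).1.toBlocks₂₁ = 0 from by_contra fun e => h k _ _ _ _ e (fromBlocks_toBlocks _).symm,
      fromBlocks_toBlocks]
  · obtain ⟨a, b, e, h2⟩ := P.normalCore_le (h1.ge (Subgroup.mem_top (symJ _ F)))
    simpa [J] using congrFun (congrFun h2 (.inr ⟨0, hm⟩)) (.inl ⟨0, hm⟩)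

variable {g : symplecticGroup (Fin 2) F} {a b c e : Matrix (Fin 2) (Fin 2) F}

theorem trace_inv {a a' : Matrix (Fin 2) (Fin 2) F} (h : a * a' = 1) : a'.trace * a.det = a.trace := by
  have := fun i j => congrFun (congrFun h i) j
  have h0 := this 0 0
  have h1 := this 0 1
  have h2 := this 1 0
  have h3 := this 1 1
  simp [mul_apply, Fin.sum_univ_two] at h0 h1 h2 h3
  rw [trace_fin_two, trace_fin_two, det_fin_two]
  linear_combination a 1 1 * h0 - a 0 1 * h2 + a 0 0 * h3 - a 1 0 * h1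

theorem reach (hg : g.1 = fromBlocks a b c e) (hc : c ≠ 0) :
    (c.det ≠ 0 ∧ ∀ S' : symS (Fin 2) F, ∃ S : symS (Fin 2) F, a + S.1 * c = S'.1 * c) ∨
    ∃ x k : Fin 2 → F, x ≠ 0 ∧ k ≠ 0 ∧ ∀ z : Fin 2 → F, ∃ S : symS (Fin 2) F,
      (a + S.1 * c).det = a.det + k ⬝ᵥ z ∧ (a + S.1 * c).trace = a.trace + x ⬝ᵥ z := by
  obtain ⟨h1, -, h2⟩ := fromBlocks_mem_iff.1 (hg ▸ g.2)
  rcases ne_or_eq c.det 0 with h | h
  · have h0 : (a * c⁻¹)ᵀ = a * c⁻¹ := by
      have := congrArg (fun M => c⁻¹ᵀ * M * c⁻¹) h1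
      simpa [Matrix.mul_assoc, h, ← Matrix.mul_assoc c⁻¹ᵀ cᵀ, ← transpose_mul] using this
    exact .inl ⟨h, fun S' => ⟨S' - ⟨a * c⁻¹, h0⟩, by simp [Matrix.sub_mul, Matrix.mul_assoc, h]⟩⟩
  right
  obtain ⟨x, y, x0, y0, rfl⟩ : ∃ x y : Fin 2 → F, x ≠ 0 ∧ y ≠ 0 ∧ c = vecMulVec y x := by
    rw [det_fin_two] at h
    by_cases h0 : c 0 = 0
    · exact ⟨c 1, ![0, 1], fun e => hc (by ext i j; fin_cases i <;> simp [h0, e]), by simp,
        by ext i j; fin_cases i <;> simp [h0, vecMulVec_apply]⟩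
    by_cases h00 : c 0 0 = 0
    · have h01 : c 0 1 ≠ 0 := fun e => h0 (by ext j; fin_cases j <;> simp [h00, e])
      refine ⟨c 0, ![1, c 1 1 / c 0 1], h0, by simp, ?_⟩
      ext i j
      fin_cases i <;> fin_cases j <;> simp_all [vecMulVec_apply]
    · refine ⟨c 0, ![1, c 1 0 / c 0 0], h0, by simp, ?_⟩
      ext i j
      fin_cases i <;> fin_cases j <;> simp [vecMulVec_apply, h00]
      field_simp; linear_combination h
  refine ⟨x, ![x 0 * a 1 1 - x 1 * a 1 0, x 1 * a 0 0 - x 0 * a 0 1], x0, fun e' => x0 ?_, fun z => ?_⟩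
  · have e0 := congrFun e' 0
    have e1 := congrFun e' 1
    have h3 := congrArg (fun M => ![-x 1, x 0] ᵥ* M) h2
    have h4 := congrFun h3 0
    have h5 := congrFun h3 1
    simp [vecMul, dotProduct, mul_apply, Fin.sum_univ_two, vecMulVec_apply] at e0 e1 h4 h5
    ext i
    fin_cases i <;> simp
    · linear_combination -h5 + e 1 1 * e0 - e 0 1 * e1
    · linear_combination h4 - e 1 0 * e0 + e 0 0 * e1
  obtain ⟨S, hS⟩ : ∃ S : symS (Fin 2) F, S.1 *ᵥ y = z := by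
    by_cases h0 : y 0 = 0
    · have h1 : y 1 ≠ 0 := fun e => y0 (by ext j; fin_cases j <;> simp [h0, e])
      exact ⟨⟨!![0, z 0 / y 1; z 0 / y 1, z 1 / y 1], by ext i j; fin_cases i <;> fin_cases j <;> rfl⟩,
        by ext i; fin_cases i <;> simp [mulVec, dotProduct, h0, h1]⟩
    · exact ⟨⟨!![(z 0 - z 1 / y 0 * y 1) / y 0, z 1 / y 0; z 1 / y 0, 0], by ext i j; fin_cases i <;> fin_cases j <;> rfl⟩,
        by ext i; fin_cases i <;> simp [mulVec, dotProduct, h0]⟩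
  refine ⟨S, ?_⟩
  rw [mul_vecMulVec, hS]
  simp [det_fin_two, trace_fin_two, vecMulVec_apply, dotProduct]
  constructor <;> ring

theorem exists_dot {k : Fin 2 → F} (hk : k ≠ 0) (t : F) : ∃ z, k ⬝ᵥ z = t := by
  obtain ⟨i, hi⟩ := Function.ne_iff.1 hk
  exact ⟨Pi.single i (t / k i), by rw [dotProduct_single, mul_div_cancel₀ _ hi]⟩

theorem reach_det (hg : g.1 = fromBlocks a b c e) (hc : c ≠ 0) : ∃ S : symS (Fin 2) F, (a + S.1 * c).det = 1 := by
  rcases reach hg hc with ⟨h, h'⟩ | ⟨x, k, -, k0, h⟩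
  · obtain ⟨S, hS⟩ := h' ⟨!![1, 0; 0, c.det⁻¹], by ext i j; fin_cases i <;> fin_cases j <;> rfl⟩
    exact ⟨S, by rw [hS, det_mul]; simp [h]⟩
  · obtain ⟨z, hz⟩ := exists_dot k0 (1 - a.det)
    exact (h z).imp fun S hS => by rw [hS.1, hz, add_sub_cancel]

theorem reach_two (h2 : (2 : F) = 0) {d : F} (d0 : d ≠ 0) (d1 : d ≠ 1) (hg : g.1 = fromBlocks a b c e) (hc : c ≠ 0) :
    ∃ S : symS (Fin 2) F, a + S.1 * c = 1 ∨
      (((a + S.1 * c).det = 1 ∨ (a + S.1 * c).det = d ^ 2) ∧ (a + S.1 * c).trace ≠ 0) := by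
  rcases reach hg hc with ⟨h, h'⟩ | ⟨x, k, x0, k0, h⟩
  · by_cases h3 : cᵀ = c ∧ c 0 0 = 0 ∧ c 1 1 = 0
    · obtain ⟨S, hS⟩ := h' ⟨c⁻¹, show _ᵀ = _ by rw [transpose_nonsing_inv, h3.1]⟩
      exact ⟨S, .inl (by simp [hS, h])⟩
    obtain ⟨t, ht⟩ : ∃ t, c 0 0 + t * (c 1 0 + c 0 1) + (c.det⁻¹ + t ^ 2) * c 1 1 ≠ 0 := by
      by_contra h4
      push Not at h4
      have h5 : c 1 1 = 0 := mul_left_cancel₀ (mul_ne_zero d0 (sub_ne_zero.2 d1)) (by
        linear_combination h4 d - d * h4 1 + (d - 1) * h4 0)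
      refine h3 ⟨?_, by linear_combination h4 0 - c.det⁻¹ * h5, h5⟩
      ext i j
      fin_cases i <;> fin_cases j <;> simp
      · linear_combination h4 1 - h4 0 - h5 - c 0 1 * h2
      · linear_combination h4 1 - h4 0 - h5 - c 1 0 * h2
    obtain ⟨S, hS⟩ := h' ⟨!![1, t; t, c.det⁻¹ + t ^ 2], by ext i j; fin_cases i <;> fin_cases j <;> rfl⟩
    refine ⟨S, .inr ⟨.inl (by rw [hS, det_mul]; simp [h, pow_two]), fun e => ht ?_⟩⟩
    simp [hS, trace_fin_two, vecMul, dotProduct] at e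
    linear_combination e
  obtain ⟨z, hz, hz'⟩ : ∃ z, (a.det + k ⬝ᵥ z = 1 ∨ a.det + k ⬝ᵥ z = d ^ 2) ∧ a.trace + x ⬝ᵥ z ≠ 0 := by
    obtain ⟨z, hz⟩ := exists_dot k0 (1 - a.det)
    obtain ⟨z', hz'⟩ := exists_dot k0 (d ^ 2 - 1)
    obtain ⟨w, hw⟩ := exists_dot x0 1
    have h3 : d ^ 2 - 1 ≠ 0 := fun e => d1 (sub_eq_zero.1 (eq_zero_of_pow_eq_zero (n := 2) (by
      linear_combination e + (1 - d) * h2)))
    by_cases h4 : a.trace + x ⬝ᵥ z = 0
    · by_cases h5 : x ⬝ᵥ z' = 0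
      · exact ⟨z + (w - (k ⬝ᵥ w / (d ^ 2 - 1)) • z'), .inl (by simp [hz, hz', h3]), by
          rw [dotProduct_add, ← add_assoc, h4, dotProduct_sub, dotProduct_smul, h5, hw]; simp⟩
      · exact ⟨z + z', .inr (by simp [hz, hz']), by rwa [dotProduct_add, ← add_assoc, h4, zero_add]⟩
    · exact ⟨z, .inl (by simp [hz]), h4⟩
  exact (h z).imp fun S hS => .inr (by rw [hS.1, hS.2]; exact ⟨hz, hz'⟩)

variable {τ d : F} {A : (Matrix (Fin 2) (Fin 2) F)ˣ} (hA : A.1 = cmp τ d) (h1 : τ ^ 2 - 4 * d ≠ 0) (h2 : d ≠ 1)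
  (h3 : (1 + d) ^ 2 - τ ^ 2 ≠ 0)
include hA h2 h3

theorem conj_levi (S₀ : symS (Fin 2) F) : IsConj (levi A) (spS S₀ * levi A) := by
  obtain ⟨S, rfl⟩ : ∃ S, (1 - symAct A.1) S = S₀ := LinearMap.surjective_of_injective
    ((injective_iff_map_eq_zero _).2 fun S h => by
      have hS : S.1 1 0 = S.1 0 1 := congrFun (congrFun S.2 0) 1
      have := fun i j => congrFun (congrFun (congrArg Subtype.val h) i) j
      have e0 := this 0 0
      have e1 := this 0 1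
      have e2 := this 1 1
      simp [symAct, hA, cmp, mul_apply, Fin.sum_univ_two, vecMul, dotProduct, hS] at e0 e1 e2
      have e3 : S.1 1 1 = 0 := mul_left_cancel₀ (mul_ne_zero (sub_ne_zero.2 h2) h3) (by
        linear_combination -(1 + d) * (e0 + e2) - 2 * τ * e1)
      have e4 : S.1 0 0 = 0 := by linear_combination e0 + d ^ 2 * e3
      have e5 : S.1 0 1 = 0 := mul_left_cancel₀ (mul_ne_zero (sub_ne_zero.2 h2) h3) (by
        linear_combination ((d - 1) * (1 + d) - τ ^ 2) * (e1 - d * τ * e3) - τ * (e2 + e4 - (1 - τ ^ 2) * e3))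
      ext i j
      fin_cases i <;> fin_cases j <;> simp [hS, e3, e4, e5]) S₀
  refine isConj_iff.2 ⟨spS S, ?_⟩
  rw [spS_inv, mul_assoc, levi_mul_spS, ← mul_assoc, ← spS_add, map_neg, ← sub_eq_add_neg]
  rfl

include h1

theorem conj_up (hg : g.1 = fromBlocks a b 0 e) (ht : a.trace = τ) (hd : a.det = d) : IsConj (levi A) g := by
  obtain ⟨k, hk⟩ := exists_cmp (ne_smul_of_disc (l := a) (by rwa [ht, hd]))
  rw [ht, hd, ← hA] at hk
  obtain ⟨S, rfl⟩ := eq_spS_mul (k * A * k⁻¹) (hk ▸ hg)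
  refine (conj_levi hA h2 h3 (symAct k⁻¹.1 S)).trans (isConj_iff.2 ⟨levi k, ?_⟩)
  rw [map_mul, map_mul, map_inv, ← mul_inv_eq_iff_eq_mul.2 (levi_mul_spS k⁻¹ S), map_inv]
  group

theorem conj_inv (h : IsConj (levi A) g) : IsConj (levi A) g⁻¹ := by
  have := conj_up hA h1 h2 h3 (a := A.1ᵀ) (b := 0) (e := A⁻¹.1) ((coe_J_conj (coe_levi A⁻¹)).trans (by simp))
    (by simp [hA, cmp]) (by simp [hA, cmp])
  obtain ⟨k, rfl⟩ := isConj_iff.1 h
  exact this.trans ((isConj_iff.2 ⟨_, rfl⟩).symm.trans (isConj_iff.2 ⟨k, by simp [mul_assoc]⟩))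

theorem split (hg : g.1 = fromBlocks a b c e) {m : Matrix (Fin 2) (Fin 2) F} (ht : (a * m).trace = τ)
    (hd : (a * m).det = d) (hm : m.trace = τ ∧ m.det = d ∨ d * m.trace = τ ∧ d * m.det = 1) :
    ∃ y z, IsConj (levi A) y ∧ IsConj (levi A) z ∧ g = y * z := by
  have d0 : d ≠ 0 := by simpa [hA, cmp] using ((isUnit_iff_isUnit_det _).1 A.isUnit).ne_zero
  rw [det_mul] at hd
  obtain ⟨k, rfl⟩ := (isUnit_iff_isUnit_det m).2 (right_ne_zero_of_mul (hd ▸ d0)).isUnit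
  obtain ⟨j, rfl⟩ := (isUnit_iff_isUnit_det a).2 (left_ne_zero_of_mul (hd ▸ d0)).isUnit
  have h4 := (fromBlocks_mem_iff.1 (fromBlocks_transpose _ b c e ▸ hg ▸ transpose_mem g.2)).1
  let S : symS (Fin 2) F := ⟨-(j⁻¹.1 * b), by
    have := congrArg (fun M => j⁻¹.1 * M * j⁻¹.1ᵀ) h4
    change _ᵀ = _
    simpa [Matrix.mul_assoc, ← transpose_mul] using this⟩
  refine ⟨g * (spS S * levi k), (spS S * levi k)⁻¹, ?_, ?_, (mul_inv_cancel_right _ _).symm⟩
  · obtain ⟨c', e', h5⟩ : ∃ c' e', (g * (spS S * levi k)).1 = fromBlocks (j * k).1 0 c' e' :=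
      ⟨_, _, by simp [hg, S, spS, coe_levi, fromBlocks_multiply, ← Matrix.mul_assoc]; exact ⟨rfl, rfl⟩⟩
    generalize g * (spS S * levi k) = y at h5
    obtain ⟨b', e'', h6⟩ : ∃ b' e'', (symJ _ F * y⁻¹ * (symJ _ F)⁻¹).1 = fromBlocks (j * k).1ᵀ b' 0 e'' := ⟨_, _, by
      simp [h5, coe_inv, J, fromBlocks_multiply, fromBlocks_transpose, fromBlocks_neg]; exact ⟨rfl, rfl⟩⟩
    simpa using conj_inv hA h1 h2 h3 ((conj_up hA h1 h2 h3 h6 (by rwa [trace_transpose]) (by simpa [mul_comm] using hd)).trans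
      (isConj_iff.2 ⟨_, rfl⟩).symm)
  · rcases hm with hm | hm
    · exact conj_inv hA h1 h2 h3 (conj_up hA h1 h2 h3 (a := k.1) (b := S.1 * k⁻¹.1ᵀ) (e := k⁻¹.1ᵀ)
        (by simp [spS, coe_levi, fromBlocks_multiply]) hm.1 hm.2)
    · have h5 := trace_inv k.mul_inv
      have h6 : k.1.det * k⁻¹.1.det = 1 := by rw [← det_mul, k.mul_inv, det_one]
      rw [_root_.mul_inv_rev, ← map_inv, spS_inv]
      exact conj_up hA h1 h2 h3 (a := k⁻¹.1) (b := k⁻¹.1 * -S.1) (e := k.1ᵀ)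
        (by simp [spS, coe_levi, fromBlocks_multiply, -map_inv]) (by linear_combination d * h5 + hm.1 - k⁻¹.1.trace * hm.2)
        (by linear_combination d * h6 - k⁻¹.1.det * hm.2)

end CfsgLib.SpTh
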