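import Mathlib
import Cfsg.Agent.Lib.SpTh.Sp4

/-!
# A semisimple class of `Sp₄(q)` whose square covers the noncentral elements up to sign
-/

set_option autoImplicit false

namespace CfsgLib.SpTh

open Matrix CfsgLib.LS CfsgLib.Symp SymplecticGroup

variable {F : Type*} [Field F] [Fintype F]

theorem exists_good_odd (h2 : (2 : F) ≠ 0) {l : Matrix (Fin 2) (Fin 2) F} (hl : l.det = 1) :
    ∃ m : Matrix (Fin 2) (Fin 2) F, m.trace = 2 ∧ m.det = -1 ∧ ((l * m).trace = 2 ∨ (-l * m).trace = 2) := by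
  have h4 : (4 : F) ≠ 0 := by rw [show (4 : F) = 2 * 2 by norm_num]; exact mul_ne_zero h2 h2
  by_cases h : ∃ μ : F, l = μ • 1
  · obtain ⟨μ, rfl⟩ := h
    refine ⟨cmp 2 (-1), by simp [cmp], by simp [cmp], ?_⟩
    rcases (sq_eq_one_iff (a := μ)).1 (by simpa using hl) with rfl | rfl <;> simp [cmp]
  push Not at h
  by_cases h' : l.trace ^ 2 - 4 * l.det = 0
  · rcases mul_eq_zero.1 (show (l.trace - 2) * (l.trace + 2) = 0 by linear_combination h' + 4 * hl) with h' | h'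
    · exact (exists_mul_of_sol h (τ := 2) (τ' := -2) (d := -1) (a := 4⁻¹) (c := -4⁻¹) (by
        rw [sub_eq_zero.1 h', hl]; field_simp; ring)).imp fun m hm => ⟨hm.1, hm.2.1, .inr (by simp [hm.2.2])⟩
    · exact (exists_mul_of_sol h (τ := 2) (τ' := 2) (d := -1) (a := 4⁻¹) (c := 4⁻¹) (by
        rw [eq_neg_of_add_eq_zero_left h', hl]; field_simp; ring)).imp fun m hm => ⟨hm.1, hm.2.1, .inl hm.2.2⟩
  · exact (exists_mul_of_disc h' 2 (-1) 2).imp fun m hm => ⟨hm.1, hm.2.1, .inl hm.2.2⟩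

theorem exists_class (h : 3 ≤ Fintype.card F) : ∃ (τ d : F) (A : (Matrix (Fin 2) (Fin 2) F)ˣ), A.1 = cmp τ d ∧
    τ ^ 2 - 4 * d ≠ 0 ∧ ∀ g ∉ Subgroup.center (symplecticGroup (Fin 2) F), ∃ y z, IsConj (levi A) y ∧
      IsConj (levi A) z ∧ ∃ w ∈ Subgroup.center _, g * w = y * z := by
  have hp := commutator_eq_top (m := 2) (F := F) (.inr (.inl ⟨rfl, h⟩))
  have key {τ d : F} (d0 : d ≠ 0) (h1 : τ ^ 2 - 4 * d ≠ 0) (h2 : d ≠ 1) (h3 : (1 + d) ^ 2 - τ ^ 2 ≠ 0)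
      (H : ∀ {g : symplecticGroup (Fin 2) F} {a b c e}, g.1 = fromBlocks a b c e → c ≠ 0 → ∃ S : symS (Fin 2) F,
        ∃ m : Matrix (Fin 2) (Fin 2) F, (((a + S.1 * c) * m).trace = τ ∨ (-(a + S.1 * c) * m).trace = τ) ∧
          ((a + S.1 * c) * m).det = d ∧ (m.trace = τ ∧ m.det = d ∨ d * m.trace = τ ∧ d * m.det = 1)) :
      ∃ (A : (Matrix (Fin 2) (Fin 2) F)ˣ), A.1 = cmp τ d ∧ τ ^ 2 - 4 * d ≠ 0 ∧
        ∀ g ∉ Subgroup.center (symplecticGroup (Fin 2) F), ∃ y z, IsConj (levi A) y ∧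
          IsConj (levi A) z ∧ ∃ w ∈ Subgroup.center _, g * w = y * z := by
    obtain ⟨A, hA⟩ := (isUnit_iff_isUnit_det (cmp τ d)).2 (by simpa [cmp] using d0)
    refine ⟨A, hA, h1, fun g hg => ?_⟩
    obtain ⟨k, a, b, c, e, hc, hk⟩ := exists_conj_low hp one_le_two hg
    obtain ⟨S, m, ht, hd, hm⟩ := H hk hc
    obtain ⟨b', e', hS⟩ := coe_spS_conj hk S
    have fin : ∀ w ∈ Subgroup.center _, (∃ y z, IsConj (levi A) y ∧ IsConj (levi A) z ∧
        spS S * (k * g * k⁻¹) * (spS S)⁻¹ * w = y * z) →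
        ∃ y z, IsConj (levi A) y ∧ IsConj (levi A) z ∧ ∃ w ∈ Subgroup.center _, g * w = y * z :=
      fun w hw ⟨y, z, hy, hz, e⟩ => ⟨(spS S * k)⁻¹ * y * (spS S * k)⁻¹⁻¹, (spS S * k)⁻¹ * z * (spS S * k)⁻¹⁻¹,
        hy.trans (isConj_iff.2 ⟨_, rfl⟩), hz.trans (isConj_iff.2 ⟨_, rfl⟩), w, hw, by
          rw [conj_mul, ← e, mul_assoc, mul_assoc _ w, ← Subgroup.mem_center_iff.1 hw]; group⟩
    rcases ht with ht | ht
    · exact fin 1 (one_mem _) (split hA h1 h2 h3 (by rw [mul_one, hS]) ht hd hm)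
    · exact fin _ (spNegOne_mem_center _ _) (split hA h1 h2 h3 (b := -b') (c := -c) (e := -e')
        (by rw [Submonoid.coe_mul, hS, spNegOne, mul_neg, mul_one, fromBlocks_neg]) ht
        (by rw [neg_mul, det_neg, hd]; simp) hm)
  by_cases h2 : (2 : F) = 0
  · obtain ⟨d, d0, d1⟩ : ∃ d : F, d ≠ 0 ∧ d ≠ 1 := by
      classical
      obtain ⟨d, -, hd⟩ := Finset.exists_mem_notMem_of_card_lt_card (s := {(0 : F), 1}) (t := Finset.univ)
        (lt_of_le_of_lt Finset.card_le_two h)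
      exact ⟨d, by simpa using hd⟩
    have h4 (x y : F) : x ^ 2 - 4 * y = x ^ 2 := by linear_combination -2 * y * h2
    refine ⟨1, d, key d0 (by rw [h4]; simp) d1 (by
      rw [show (1 + d) ^ 2 - 1 ^ 2 = d ^ 2 by linear_combination d * h2]; exact pow_ne_zero _ d0) fun hg hc => ?_⟩
    obtain ⟨S, hS | ⟨hS | hS, ht⟩⟩ := reach_two h2 d0 d1 hg hc
    · exact ⟨S, cmp 1 d, .inl (by simp [hS, cmp]), by simp [hS, cmp], .inl (by simp [cmp])⟩
    · obtain ⟨m, e1, e2, e3⟩ := exists_mul_of_disc (by rw [h4]; exact pow_ne_zero _ ht) 1 d 1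
      exact ⟨S, m, .inl e3, by rw [det_mul, hS, e2, one_mul], .inl ⟨e1, e2⟩⟩
    · obtain ⟨m, e1, e2, e3⟩ := exists_mul_of_disc (by rw [h4]; exact pow_ne_zero _ ht) d⁻¹ d⁻¹ 1
      exact ⟨S, m, .inl e3, by rw [det_mul, hS, e2]; field_simp, .inr (by simp [e1, e2, d0])⟩
  · refine ⟨2, -1, key (by simp) ?_ ?_ ?_ fun hg hc => ?_⟩
    · exact fun e => pow_ne_zero 3 h2 (by linear_combination e)
    · exact fun e => h2 (by linear_combination -e)
    · exact fun e => pow_ne_zero 2 h2 (by linear_combination -e)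
    obtain ⟨S, hS⟩ := reach_det hg hc
    obtain ⟨m, e1, e2, e3⟩ := exists_good_odd h2 hS
    exact ⟨S, m, e3, by rw [det_mul, hS, e2, one_mul], .inl ⟨e1, e2⟩⟩

end CfsgLib.SpTh
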